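import Mathlib.AlgebraicGeometry.ProjectiveSpectrum.Functor
import Mathlib.AlgebraicGeometry.Morphisms.ClosedImmersion
import Mathlib.AlgebraicGeometry.Properties
import Groth.Agent.Sga5.ProjSurj

/-!
# `Proj` of a graded ring without nilpotents of positive degree is reduced

* `degSurj_of_surjective` : a surjective graded ring hom is surjective in each degree;
* `away_isReduced` : `Away 𝒜 s` is reduced if no nonzero homogeneous element of positive degree is nilpotent;
* `proj_isReduced` : hence `Proj 𝒜` is reduced.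
-/

set_option autoImplicit false
open CategoryTheory AlgebraicGeometry HomogeneousLocalization Graded
universe u

namespace Groth.Agent.Ega2.H294.ProjRed

variable {A B σ τ : Type u} [CommRing A] [SetLike σ A] [AddSubgroupClass σ A]
  [CommRing B] [SetLike τ B] [AddSubgroupClass τ B]
  {𝒜 : ℕ → σ} {ℬ : ℕ → τ} [GradedRing 𝒜] [GradedRing ℬ]
  (f : 𝒜 →+*ᵍ ℬ)

/-- A surjective homomorphism of graded rings is surjective in each degree. -/
theorem degSurj_of_surjective (hs : Function.Surjective f) : Groth.Agent.Sga5.ProjSurj.DegSurj f := by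
  intro i b hb
  obtain ⟨a, rfl⟩ := hs b
  refine ⟨(DirectSum.decompose 𝒜 a i : A), SetLike.coe_mem _, ?_⟩
  rw [GradedRingHom.map_directSumDecompose]
  exact DirectSum.decompose_of_mem_same ℬ hb

/-- If no nonzero homogeneous element of positive degree of `A` is nilpotent, then each
`Away 𝒜 s`, with `s` homogeneous of positive degree, is reduced. -/
theorem away_isReduced (hred : ∀ i : ℕ, 0 < i → ∀ a ∈ 𝒜 i, IsNilpotent a → a = 0)
    {d : ℕ} (hd0 : 0 < d) (s : A) (hs : s ∈ 𝒜 d) : _root_.IsReduced (Away 𝒜 s) := by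
  constructor
  intro z hz
  obtain ⟨n, a, ha, rfl⟩ := HomogeneousLocalization.Away.mk_surjective 𝒜 hs z
  obtain ⟨k, hk⟩ := hz
  have hval : (Away.mk 𝒜 hs n a ha).val =
      (Localization.mk a ⟨s ^ n, ⟨n, rfl⟩⟩ : Localization (Submonoid.powers s)) := rfl
  have h1 : (Localization.mk a ⟨s ^ n, ⟨n, rfl⟩⟩ : Localization (Submonoid.powers s)) ^ k = 0 := by
    rw [← hval, ← HomogeneousLocalization.val_pow, hk, HomogeneousLocalization.val_zero]
  rw [Localization.mk_pow, Localization.mk_eq_mk', IsLocalization.mk'_eq_zero_iff] at h1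
  obtain ⟨⟨_, m, rfl⟩, hm⟩ := h1
  have h2 : s * a = 0 := by
    refine hred (d + n • d) (by omega) _ (SetLike.mul_mem_graded hs ha) ⟨m + k, ?_⟩
    have : (s * a) ^ (m + k) = (s ^ k * a ^ m) * (s ^ m * a ^ k) := by ring
    rw [this]
    simp only at hm
    rw [hm, mul_zero]
  apply HomogeneousLocalization.val_injective
  rw [hval, HomogeneousLocalization.val_zero, Localization.mk_eq_mk', IsLocalization.mk'_eq_zero_iff]
  exact ⟨⟨s, ⟨1, pow_one s⟩⟩, h2⟩

/-- If no nonzero homogeneous element of positive degree of `A` is nilpotent, then `Proj` is reduced. -/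
theorem proj_isReduced (hred : ∀ i : ℕ, 0 < i → ∀ a ∈ 𝒜 i, IsNilpotent a → a = 0) :
    AlgebraicGeometry.IsReduced (Proj 𝒜) := by
  have : ∀ i, AlgebraicGeometry.IsReduced ((Proj.affineOpenCover 𝒜).openCover.X i) := by
    intro i
    have h := away_isReduced hred i.1.2 (i.2 : A) i.2.2
    exact inferInstanceAs (AlgebraicGeometry.IsReduced (Spec (CommRingCat.of (Away 𝒜 (i.2 : A)))))
  exact AlgebraicGeometry.IsReduced.of_openCover _ (Proj.affineOpenCover 𝒜).openCover

end Groth.Agent.Ega2.H294.ProjRed
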